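import Mathlib
import Cfsg.Prelude.Def_Solvable
import Cfsg.Agent.Lib.Helper68.Frobenius

/-!
Fixed-point-free actions give Frobenius complements (abstractly, in `Type`).
-/

set_option autoImplicit false

namespace Cfsg.Agent.Lib.Helper56

open scoped Pointwise

/-- Being a Frobenius complement is invariant under isomorphisms. -/
theorem isFrobeniusComplement_map {L L' : Type*} [Group L] [Group L'] (e : L ≃* L') {C : Subgroup L}
    (hC : Cfsg.IsFrobeniusComplement C) : Cfsg.IsFrobeniusComplement (C.map e.toMonoidHom) := by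
  obtain ⟨h1, h2, h3⟩ := hC
  refine ⟨?_, ?_, ?_⟩
  · intro h
    apply h1
    rwa [Subgroup.map_eq_bot_iff_of_injective _ e.injective] at h
  · intro h
    apply h2
    rw [eq_top_iff]
    intro x _
    have : e x ∈ C.map e.toMonoidHom := by rw [h]; exact Subgroup.mem_top _
    obtain ⟨y, hy, hxy⟩ := this
    have : y = x := e.injective hxy
    rwa [← this]
  · intro g hg
    rw [eq_bot_iff]
    rintro y ⟨⟨c, hc, rfl⟩, hy2⟩
    obtain ⟨s, ⟨d, hd, rfl⟩, hs⟩ := (Subgroup.mem_smul_pointwise_iff_exists _ _ _).1 hy2
    simp only [MulAut.smul_def, MulAut.conj_apply] at hs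
    have hg' : e.symm g ∉ C := by
      intro h
      apply hg
      exact ⟨e.symm g, h, by simp⟩
    have h4 := h3 _ hg'
    have h5 : c ∈ C ⊓ (MulAut.conj (e.symm g) • C) := by
      refine Subgroup.mem_inf.2 ⟨hc, ?_⟩
      rw [Subgroup.mem_smul_pointwise_iff_exists]
      refine ⟨d, hd, ?_⟩
      simp only [MulAut.smul_def, MulAut.conj_apply]
      apply e.injective
      have hs' : g * e d * g⁻¹ = e c := hs
      simp [hs']
    rw [h4, Subgroup.mem_bot] at h5
    rw [Subgroup.mem_bot, h5]
    simp

/-- A fixed-point-free action by automorphisms of a nontrivial finite group `H` on a nontrivial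
finite group `V` makes `H` a Frobenius complement (of a group living in `Type`). -/
theorem exists_frobenius_of_fpf {V H : Type*} [Group V] [Group H] [Finite V] [Finite H]
    [Nontrivial V] [Nontrivial H] (φ : H →* MulAut V)
    (hfpf : ∀ h : H, h ≠ 1 → ∀ v : V, φ h v = v → v = 1) :
    ∃ (L : Type) (_ : Group L) (_ : Finite L) (C : Subgroup L),
      Cfsg.IsFrobeniusComplement C ∧ Nonempty (H ≃* C) := by
  let N : Subgroup (V ⋊[φ] H) := (SemidirectProduct.inl : V →* V ⋊[φ] H).range
  let C0 : Subgroup (V ⋊[φ] H) := (SemidirectProduct.inr : H →* V ⋊[φ] H).range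
  have hNn : N.Normal := by
    have : N = (SemidirectProduct.rightHom : V ⋊[φ] H →* H).ker :=
      SemidirectProduct.range_inl_eq_ker_rightHom
    rw [this]
    infer_instance
  have hfin : Finite (V ⋊[φ] H) := Finite.of_equiv _ SemidirectProduct.equivProd.symm
  have hF := Cfsg.Agent.Lib.Helper68.isFrobeniusComplement_of_fpf N C0
    (by
      obtain ⟨v, hv⟩ := exists_ne (1 : V)
      intro h
      have : (SemidirectProduct.inl v : V ⋊[φ] H) ∈ N := ⟨v, rfl⟩
      rw [h, Subgroup.mem_bot] at this
      apply hv
      apply SemidirectProduct.inl_injective (φ := φ)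
      rw [this, map_one])
    (by
      obtain ⟨v, hv⟩ := exists_ne (1 : H)
      intro h
      have : (SemidirectProduct.inr v : V ⋊[φ] H) ∈ C0 := ⟨v, rfl⟩
      rw [h, Subgroup.mem_bot] at this
      apply hv
      apply SemidirectProduct.inr_injective (φ := φ)
      rw [this, map_one])
    (by
      rw [eq_top_iff]
      intro x _
      rw [← SemidirectProduct.inl_left_mul_inr_right x]
      exact Subgroup.mul_mem _ (Subgroup.mem_sup_left ⟨_, rfl⟩) (Subgroup.mem_sup_right ⟨_, rfl⟩))
    (by
      rw [eq_bot_iff]
      rintro x ⟨⟨v, rfl⟩, ⟨h, hh⟩⟩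
      have h1 := congrArg SemidirectProduct.left hh
      simp only [SemidirectProduct.left_inr, SemidirectProduct.left_inl] at h1
      rw [Subgroup.mem_bot, ← h1, map_one])
    (by
      rintro _ ⟨h, rfl⟩ hh1 _ ⟨v, rfl⟩ hc
      have hh : h ≠ 1 := by
        rintro rfl
        exact hh1 (map_one _)
      have h1 := congrArg SemidirectProduct.left hc
      simp only [SemidirectProduct.mul_left, SemidirectProduct.left_inl, SemidirectProduct.right_inl,
        SemidirectProduct.left_inr, SemidirectProduct.mul_right, SemidirectProduct.right_inr,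
        SemidirectProduct.inv_left, map_one, MulAut.one_apply, mul_one, one_mul, inv_one] at h1
      -- v * φ h v⁻¹ = 1
      have h2 : φ h v = v := by
        rw [map_inv, mul_inv_eq_one] at h1
        exact h1.symm
      rw [hfpf h hh v h2, map_one])
  obtain ⟨L, hg, hf, ⟨e⟩⟩ := Finite.exists_type_univ_nonempty_mulEquiv.{_, 0} (V ⋊[φ] H)
  refine ⟨L, hg, inferInstance, C0.map e.toMonoidHom, isFrobeniusComplement_map e hF.1, ?_⟩
  have e1 : H ≃* C0 := MonoidHom.ofInjective (SemidirectProduct.inr_injective (φ := φ))
  have e2 : C0 ≃* C0.map e.toMonoidHom := e.subgroupMap C0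
  exact ⟨e1.trans e2⟩

/-- Additive version: a fixed-point-free distributive action on a finite additive group. -/
theorem exists_frobenius_of_fpf_add {V H : Type*} [AddGroup V] [Group H] [Finite V] [Finite H]
    [Nontrivial V] [Nontrivial H] [DistribMulAction H V]
    (hfpf : ∀ h : H, h ≠ 1 → ∀ v : V, h • v = v → v = 0) :
    ∃ (L : Type) (_ : Group L) (_ : Finite L) (C : Subgroup L),
      Cfsg.IsFrobeniusComplement C ∧ Nonempty (H ≃* C) := by
  let φ : H →* MulAut (Multiplicative V) :=
    { toFun := fun h => AddEquiv.toMultiplicative (DistribMulAction.toAddEquiv V h)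
      map_one' := by
        ext v
        change Multiplicative.ofAdd ((1 : H) • v.toAdd) = v
        rw [one_smul]; rfl
      map_mul' := by
        intro a b
        ext v
        change Multiplicative.ofAdd ((a * b) • v.toAdd) = Multiplicative.ofAdd (a • (b • v.toAdd))
        rw [mul_smul] }
  apply exists_frobenius_of_fpf (V := Multiplicative V) φ
  intro h hh v hv
  have : h • v.toAdd = v.toAdd := congrArg Multiplicative.toAdd hv
  have := hfpf h hh _ this
  exact Multiplicative.toAdd.injective this

end Cfsg.Agent.Lib.Helper56
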